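import Cfsg.Agent.Lib.Helper49.Shunt.SimsCore
import Cfsg.Agent.Lib.Helper11.ShuntChain

/-!
# Sims' 2-group core, symmetric form

`lemSimsCoreSym`: `D ≤ G`, `g` with `D ∩ g⁻¹Dg` of index 2 in `g⁻¹Dg`, and no nontrivial
subgroup of `D` normalized by `D`, `g⁻¹Dg` and `gDg⁻¹`. Then `|D| = 2 ^ t` with `t ≤ 4`.
-/

namespace Cfsg.Agent.Lib.Helper49.Shunt

universe u

open Pointwise
open scoped commutatorElement

variable {G : Type*} [Group G]

/-- symmetric centre bound: if no nontrivial element of `P` commutes with `x_{-1}, …, x_t`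
then `2 lam ≤ t + 2`. -/
theorem Ctx.center_bound_sym {P : Subgroup G} {g : G} {p t : ℕ} {x : G} (hC : Ctx P g p t x)
    {lam : ℕ} (h2 : lam ≤ t) (hcm : Cm g x lam)
    (hZ : ∀ z ∈ P, (∀ j : ℤ, -1 ≤ j → j ≤ t → Commute z (xs g x j)) → z = 1) :
    2 * lam ≤ t + 2 := by
  by_contra hlt
  push Not at hlt
  have hzP : xs g x ((t : ℤ) - lam + 1) ∈ P := by
    have : xs g x ((t : ℤ) - lam + 1) ∈ Qv P g t 0 t :=
      xs_mem_of_le hC.hx (by omega) (by omega)
    rwa [Qv_full] at this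
  have := hZ _ hzP (fun j hj1 hj2 => hcm.commute (by omega) (by omega))
  exact xs_ne_one hC.hx1 _ this

/-- For `t = 6`, `lam = 4`: the subgroup `⟨x_1,…,x_4⟩` is normalized by `x_{-1}, …, x_6`. -/
theorem Ctx.six_normalizer [Finite G] {D : Subgroup G} {g x : G} (hC : Ctx D g 2 6 x)
    (hcm : Cm g x 4) (hnc : ¬ Commute (xs g x 0) (xs g x 4)) :
    ∀ j : ℤ, -1 ≤ j → j ≤ 6 →
      xs g x j ∈ Subgroup.normalizer (Qv D g 6 1 4 : Set G) := by
  have hS := hC.sh
  have hcomm : ∀ i j : ℤ, i - j < 4 → j - i < 4 → Commute (xs g x i) (xs g x j) :=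
    fun i j h1 h2 => hcm.commute (by omega) (by omega)
  have hinv : ∀ i : ℤ, xs g x i * xs g x i = 1 := fun i => hC.xs_mul_self i
  have hc1 : ⁅xs g x 0, xs g x 4⁆ ≠ 1 := fun h =>
    hnc (commutatorElement_eq_one_iff_commute.mp h)
  have hc13 : ⁅xs g x 0, xs g x 4⁆ ∈ Qv D g 6 1 3 := by
    have := comm_mem hS hC.hx 0 (d := 3) (by norm_num)
    norm_num at this
    exact this
  have hcA : ⁅xs g x 0, xs g x 4⁆ ∈ Qv D g 6 2 2 := by
    by_contra h
    have := hC.claimA (lam := 4) (mu := 1) (k := 2) hcm hnc le_rfl rfl hc13 h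
    omega
  have hcB : ⁅xs g x 0, xs g x 4⁆ ∈ Qv D g 6 1 2 := by
    by_contra h
    have := hC.claimB (lam := 4) (nu := 3) (j := 2) hcm hnc rfl (by norm_num) hc13 h
    omega
  have hc21 : ⁅xs g x 0, xs g x 4⁆ ∈ Qv D g 6 2 1 := by
    have := Qv_inf (P := D) (g := g) (t := 6) 1 (ℓ := 1) (by norm_num)
    have h2 : ⁅xs g x 0, xs g x 4⁆ ∈ Qv D g 6 1 (1 + 1) ⊓ Qv D g 6 (1 + 1) (1 + 1) :=
      ⟨hcB, hcA⟩
    rw [this] at h2
    exact h2
  have hc2 : ⁅xs g x 0, xs g x 4⁆ = xs g x 2 :=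
    eq_of_card_two (by simpa using hS.card 2 1 (by norm_num)) hc21 (xs_mem hC.hx 2) hc1
      (xs_ne_one hC.hx1 2)
  have hG2 : ∀ i : ℤ, ⁅xs g x i, xs g x (i + 4)⁆ = xs g x (i + 2) := by
    intro i
    have := comm_xs_add g x i 0 4
    rw [add_zero] at this
    rw [this, hc2, ← xs_add]
  have hv14 : ⁅xs g x 0, xs g x 5⁆ ∈ Qv D g 6 1 4 := by
    have := comm_mem hS hC.hx 0 (d := 4) (by norm_num)
    norm_num at this
    exact this
  have hvsq : ⁅xs g x 0, xs g x 5⁆ * ⁅xs g x 0, xs g x 5⁆ = 1 :=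
    hC.mul_self_of_mem hcm (by norm_num) (by norm_num) hv14
  have hv0 : Commute (xs g x 0) ⁅xs g x 0, xs g x 5⁆ := comm_inv_trick_left (hinv 0) hvsq
  have hv5 : Commute (xs g x 5) ⁅xs g x 0, xs g x 5⁆ := comm_inv_trick_right (hinv 5) hvsq
  have hv13 : ⁅xs g x 0, xs g x 5⁆ ∈ Qv D g 6 1 3 := by
    by_contra h
    have hsq := le_of_squeeze hS.hp (H := Qv D g 6 1 3)
      (C := Subgroup.centralizer {xs g x 0} ⊓ Qv D g 6 1 4) (K := Qv D g 6 1 4) ?_
      inf_le_right (hS.card _ 3 (by norm_num)) (hS.card _ 4 (by norm_num)) ?_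
    · have h4 : xs g x 4 ∈ Subgroup.centralizer {xs g x 0} :=
        (hsq (xs_mem_of_le hC.hx (by norm_num) (by norm_num))).1
      exact hnc (commute_of_mem_centralizer_singleton h4)
    · refine le_inf ?_ (Qv_mono le_rfl (by norm_num))
      intro y hy
      exact mem_centralizer_singleton_of_commute (hC.commute_of_gen (by norm_num)
        (fun i hi1 hi2 => hcomm 0 i (by omega) (by omega)) hy)
    · intro hle
      exact h (hle ⟨mem_centralizer_singleton_of_commute hv0, hv14⟩)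
  have hv23 : ⁅xs g x 0, xs g x 5⁆ ∈ Qv D g 6 2 3 := by
    by_contra h
    have hsq := le_of_squeeze hS.hp (H := Qv D g 6 2 3)
      (C := Subgroup.centralizer {xs g x 5} ⊓ Qv D g 6 1 4) (K := Qv D g 6 1 4) ?_
      inf_le_right (hS.card _ 3 (by norm_num)) (hS.card _ 4 (by norm_num)) ?_
    · have h1 : xs g x 1 ∈ Subgroup.centralizer {xs g x 5} :=
        (hsq (xs_mem_of_le hC.hx (by norm_num) (by norm_num))).1
      have h2 := (commute_of_mem_centralizer_singleton h1).symm
      rw [commute_xs_shift] at h2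
      norm_num at h2
      exact hnc h2
    · refine le_inf ?_ (Qv_mono (by norm_num) (by norm_num))
      intro y hy
      exact mem_centralizer_singleton_of_commute (hC.commute_of_gen (by norm_num)
        (fun i hi1 hi2 => hcomm 5 i (by omega) (by omega)) hy)
    · intro hle
      exact h (hle ⟨mem_centralizer_singleton_of_commute hv5, hv14⟩)
  have hv22 : ⁅xs g x 0, xs g x 5⁆ ∈ Qv D g 6 2 2 := by
    have := Qv_inf (P := D) (g := g) (t := 6) 1 (ℓ := 2) (by norm_num)
    have h2 : ⁅xs g x 0, xs g x 5⁆ ∈ Qv D g 6 1 (2 + 1) ⊓ Qv D g 6 (1 + 1) (2 + 1) :=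
      ⟨hv13, hv23⟩
    rw [this] at h2
    exact h2
  have hG3 : ∀ i : ℤ, ⁅xs g x i, xs g x (i + 5)⁆ ∈ Qv D g 6 (i + 2) 2 := by
    intro i
    have := comm_xs_add g x i 0 5
    rw [add_zero] at this
    rw [this]
    exact Qv_conj' i hv22
  have hYgen := hC.gen 1 4 (by norm_num)
  intro j hj1 hj2
  have hcases : j = -1 ∨ j = 0 ∨ (1 ≤ j ∧ j ≤ 4) ∨ j = 5 ∨ j = 6 := by omega
  rcases hcases with rfl | rfl | ⟨h1, h4⟩ | rfl | rfl
  · apply mem_normalizer_of_gens hYgen
    rintro s ⟨i, hi1, hi2, rfl⟩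
    have hmem : xs g x i ∈ Qv D g 6 1 4 := xs_mem_of_le hC.hx hi1 hi2
    have e : xs g x (-1) * xs g x i * (xs g x (-1))⁻¹ = ⁅xs g x (-1), xs g x i⁆ * xs g x i := by
      rw [commutatorElement_def]; group
    rw [e]
    refine mul_mem ?_ hmem
    have hi : i = 1 ∨ i = 2 ∨ i = 3 ∨ i = 4 := by omega
    rcases hi with rfl | rfl | rfl | rfl
    · rw [commutatorElement_eq_one_iff_commute.mpr (hcomm _ _ (by norm_num) (by norm_num))]
      exact one_mem _
    · rw [commutatorElement_eq_one_iff_commute.mpr (hcomm _ _ (by norm_num) (by norm_num))]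
      exact one_mem _
    · have := hG2 (-1)
      norm_num at this
      rw [this]
      exact xs_mem_of_le hC.hx (by norm_num) (by norm_num)
    · have := hG3 (-1)
      norm_num at this
      exact Qv_mono (by norm_num) (by norm_num) this
  · have := Qv_normal_right hS 0 (ℓ := 4) (by norm_num)
    exact this (xs_mem_of_le hC.hx le_rfl (by norm_num))
  · exact Subgroup.le_normalizer (xs_mem_of_le hC.hx h1 (by omega))
  · have := Qv_normal_left hS 1 (ℓ := 4) (by norm_num)
    exact this (xs_mem_of_le hC.hx (by norm_num) (by norm_num))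
  · apply mem_normalizer_of_gens hYgen
    rintro s ⟨i, hi1, hi2, rfl⟩
    have hmem : xs g x i ∈ Qv D g 6 1 4 := xs_mem_of_le hC.hx hi1 hi2
    have e : xs g x 6 * xs g x i * (xs g x 6)⁻¹ = ⁅xs g x 6, xs g x i⁆ * xs g x i := by
      rw [commutatorElement_def]; group
    rw [e]
    refine mul_mem ?_ hmem
    have hi : i = 1 ∨ i = 2 ∨ i = 3 ∨ i = 4 := by omega
    rcases hi with rfl | rfl | rfl | rfl
    · rw [← commutatorElement_inv]
      apply inv_mem
      have := hG3 1
      norm_num at this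
      exact Qv_mono (by norm_num) (by norm_num) this
    · rw [← commutatorElement_inv]
      apply inv_mem
      have := hG2 2
      norm_num at this
      rw [this]
      exact xs_mem_of_le hC.hx (by norm_num) (by norm_num)
    · rw [commutatorElement_eq_one_iff_commute.mpr (hcomm _ _ (by norm_num) (by norm_num))]
      exact one_mem _
    · rw [commutatorElement_eq_one_iff_commute.mpr (hcomm _ _ (by norm_num) (by norm_num))]
      exact one_mem _

/-- Symmetric Sims core, given the chain package. -/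
theorem lemSimsCoreSym_of_chain (hChain : LemChain.{u}) {G : Type u} [Group G] [Finite G]
    (D : Subgroup G) (g : G)
    (hidx : (D ⊓ MulAut.conj g⁻¹ • D).relIndex (MulAut.conj g⁻¹ • D) = 2)
    (hY : ∀ Y : Subgroup G, Y ≤ D → D ≤ Subgroup.normalizer (Y : Set G) →
      MulAut.conj g⁻¹ • D ≤ Subgroup.normalizer (Y : Set G) →
      MulAut.conj g • D ≤ Subgroup.normalizer (Y : Set G) → Y = ⊥) :
    ∃ t : ℕ, t ≤ 4 ∧ Nat.card D = 2 ^ t := by
  have hN : ((D ⊓ MulAut.conj g⁻¹ • D).subgroupOf (MulAut.conj g⁻¹ • D)).Normal :=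
    Subgroup.normal_of_index_eq_two hidx
  have h1 : ∀ Q : Subgroup G, Q ≤ D → (Q.subgroupOf D).Normal → MulAut.conj g • Q = Q →
      Q = ⊥ := by
    intro Q hQD hQn hQg
    have hDn : D ≤ Subgroup.normalizer (Q : Set G) :=
      (Subgroup.normal_subgroupOf_iff_le_normalizer hQD).mp hQn
    have hgn : g ∈ Subgroup.normalizer (Q : Set G) := by
      rw [Subgroup.mem_normalizer_iff]
      intro h
      constructor
      · intro hh
        have := Subgroup.smul_mem_pointwise_smul h (MulAut.conj g) Q hh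
        rw [hQg] at this
        exact this
      · intro hh
        rw [← hQg] at hh
        exact (Subgroup.smul_mem_pointwise_smul_iff (a := MulAut.conj g)).mp hh
    have hconj : ∀ u : G, u ∈ Subgroup.normalizer (Q : Set G) →
        MulAut.conj u • D ≤ Subgroup.normalizer (Q : Set G) := by
      intro u hu y hy
      obtain ⟨d, hd, rfl⟩ := hy
      show u * d * u⁻¹ ∈ _
      exact mul_mem (mul_mem hu (hDn hd)) (inv_mem hu)
    exact hY Q hQD hDn (hconj g⁻¹ (inv_mem hgn)) (hconj g hgn)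
  obtain ⟨t, hS⟩ := hChain G D g 2 Nat.prime_two hN hidx h1
  obtain ⟨x, hC⟩ := exists_ctx hS
  have hcard : Nat.card D = 2 ^ t := by
    have := hS.card 0 t le_rfl
    rwa [Qv_full] at this
  have hZ : ∀ z ∈ D, (∀ j : ℤ, -1 ≤ j → j ≤ t → Commute z (xs g x j)) → z = 1 := by
    intro z hzD hz
    have hYle : Subgroup.zpowers z ≤ D := (Subgroup.zpowers_le).mpr hzD
    have hcen : ∀ k : ℤ, -1 ≤ k → k ≤ 1 →
        Qv D g t k t ≤ Subgroup.normalizer ((Subgroup.zpowers z : Subgroup G) : Set G) := by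
      intro k hk1 hk2
      apply le_normalizer_of_central
      intro w hw y hy
      obtain ⟨n, rfl⟩ := Subgroup.mem_zpowers_iff.mp hy
      have hcw : Commute z w :=
        hC.commute_of_gen le_rfl (fun i hi1 hi2 => hz i (by omega) (by omega)) hw
      exact (hcw.zpow_left n).eq.symm
    have h0 := hcen 0 (by norm_num) (by norm_num)
    rw [Qv_full] at h0
    have hm := hcen (-1) (by norm_num) (by norm_num)
    rw [← smul_eq_Qv, zpow_neg_one] at hm
    have hp := hcen 1 (by norm_num) (by norm_num)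
    rw [← smul_eq_Qv, zpow_one] at hp
    exact Subgroup.zpowers_eq_bot.mp (hY _ hYle h0 hm hp)
  refine ⟨t, ?_, hcard⟩
  by_cases hab : ∀ d : ℕ, 1 ≤ d → d < t → Commute (xs g x 0) (xs g x d)
  · have := hC.center_bound_sym le_rfl hab hZ
    omega
  · push Not at hab
    have hex : ∃ d : ℕ, 1 ≤ d ∧ d < t ∧ ¬ Commute (xs g x 0) (xs g x d) := hab
    classical
    obtain ⟨hl1, hl2, hl3⟩ := Nat.find_spec hex
    have hcm : Cm g x (Nat.find hex) := fun d hd1 hd2 => by
      by_contra hnc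
      exact Nat.find_min hex hd2 ⟨hd1, by omega, hnc⟩
    have e1 := hC.core hl1 (by omega) hcm hl3
    have e2 := hC.center_bound_sym (by omega) hcm hZ
    by_contra ht4
    have ht : t = 6 := by omega
    subst ht
    have e4 : Nat.find hex = 4 := by omega
    rw [e4] at hcm hl3
    have hnorm := hC.six_normalizer hcm (by simpa using hl3)
    have hQle : ∀ k : ℤ, -1 ≤ k → k ≤ 1 →
        Qv D g 6 k 6 ≤ Subgroup.normalizer (Qv D g 6 1 4 : Set G) := by
      intro k hk1 hk2
      rw [hC.gen k 6 le_rfl, Subgroup.closure_le]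
      rintro s ⟨i, hi1, hi2, rfl⟩
      exact hnorm i (by omega) (by omega)
    have hYD : Qv D g 6 1 4 ≤ D := by
      have h := Qv_mono (P := D) (g := g) (t := 6) (a := 1) (a' := 0) (ℓ := 4) (ℓ' := 6)
        (by norm_num) (by norm_num)
      rwa [Qv_full] at h
    have h0 := hQle 0 (by norm_num) (by norm_num)
    rw [Qv_full] at h0
    have hm := hQle (-1) (by norm_num) (by norm_num)
    rw [← smul_eq_Qv, zpow_neg_one] at hm
    have hp := hQle 1 (by norm_num) (by norm_num)
    rw [← smul_eq_Qv, zpow_one] at hp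
    have hYbot := hY _ hYD h0 hm hp
    have hc := hS.card 1 4 (by norm_num)
    rw [hYbot, Subgroup.card_bot] at hc
    norm_num at hc

/-- Symmetric Sims core: `|D| = 2 ^ t` with `t ≤ 4`. -/
theorem lemSimsCoreSym {G : Type u} [Group G] [Finite G] (D : Subgroup G) (g : G)
    (hidx : (D ⊓ MulAut.conj g⁻¹ • D).relIndex (MulAut.conj g⁻¹ • D) = 2)
    (hY : ∀ Y : Subgroup G, Y ≤ D → D ≤ Subgroup.normalizer (Y : Set G) →
      MulAut.conj g⁻¹ • D ≤ Subgroup.normalizer (Y : Set G) →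
      MulAut.conj g • D ≤ Subgroup.normalizer (Y : Set G) → Y = ⊥) :
    ∃ t : ℕ, t ≤ 4 ∧ Nat.card D = 2 ^ t :=
  lemSimsCoreSym_of_chain Cfsg.Agent.Lib.Helper11.Shunt.lemChain D g hidx hY

end Cfsg.Agent.Lib.Helper49.Shunt
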