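import Cfsg.Agent.Lib.Helper49.Shunt.SimsCore
import Cfsg.Agent.Lib.Helper11.ShuntChain

/-!
# Sims' theorem — the 2-group core `LemSimsCore`, unconditional
-/

namespace Cfsg.Agent.Lib.Helper49.Shunt

universe u

/-- (K6b) Sims core: in the 2-group configuration, `|D| = 2 ^ t` with `t ≤ 4`. -/
theorem lemSimsCore : LemSimsCore.{u} :=
  lemSimsCore_of_chain Cfsg.Agent.Lib.Helper11.Shunt.lemChain

end Cfsg.Agent.Lib.Helper49.Shunt
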